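import Cfsg.Agent.H692.TwoB.Orb
import Cfsg.Agent.SporadicStructure.Co2RankThree

/-!
# Elements of order 23 fixing a vector of type 4 and a vector of type 2 with odd inner product (helper658, row 2.B)

`exists_23` : `x` of type 4, `v` of type 2, `bf x v = 1`: an element of order 23 of `Co1` fixes `x` and `v`.  Proof: the
stabiliser of `x`, `v` has an order dividing `|M23|`; if 23 does not divide it, the orbit of `v` under the stabiliser of `x`
has more elements than there are vectors of type 2.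
-/

set_option autoImplicit false

namespace Cfsg.Agent.H658.TwoB

open Cfsg
open Cfsg.Agent.CoOneType.CoOneE (pr)
open Cfsg.Agent.SporadicStructure.Co0Base (e8)
open Cfsg.Agent.MonsterU.Lam2 (L2 cl IsType bf bf_comm bf_smul1)
open Cfsg.Agent.MonsterU.CoFrameL2 (f0 mem_F_iff)
open Cfsg.Agent.MonsterU.CoFrameF (F card_F)
open Cfsg.Agent.SporadicStructure.Co2RankThree (dt ncard_min norm_eq)
open Cfsg.Spor (Co1)

/-- the number of vectors of type 2 -/
theorem ncard_two : {x : L2 | IsType 2 x}.ncard ≤ 196560 := by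
  have hfin : ({w : leechLattice | dt w w = 32}).Finite :=
    Set.finite_of_ncard_ne_zero (by rw [ncard_min]; norm_num)
  rw [← ncard_min]
  have h1 : {x : L2 | IsType 2 x} ⊆ cl '' {w : leechLattice | dt w w = 32} := by
    rintro x ⟨w, hw, rfl⟩
    refine ⟨w, ?_, rfl⟩
    show dt w w = 32
    rw [← norm_eq, hw]
    norm_num
  exact (Set.ncard_le_ncard h1 (hfin.image _)).trans (Set.ncard_image_le hfin)

/-- **Elements of order 23.** -/
theorem exists_23 {x v : L2} (h4 : IsType 4 x) (h2 : IsType 2 v) (hb : bf x v = 1) :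
    ∃ y : Co1, orderOf y = 23 ∧ y • x = x ∧ y • v = v := by
  have hfin : Finite Co1 := Nat.finite_of_card_ne_zero (by
    rw [Cfsg.Agent.MonsterU.CoFrameF.card_Co1]; norm_num)
  have hf0 : IsType 4 f0 := ⟨e8 none, Cfsg.Agent.SporadicA.Co1Simple.sqNorm_e8 none, rfl⟩
  obtain ⟨g0, hg⟩ := IsType.trans (Or.inr (Or.inr rfl)) h4 hf0
  obtain ⟨g, hgd⟩ : ∃ g, g = pr g0 := ⟨_, rfl⟩
  have hg' : g • x = f0 := by rw [hgd]; exact hg
  let T : Subgroup Co1 := (MulAction.stabilizer F (g • v)).map F.subtype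
  have hTF : ∀ t ∈ T, t ∈ F := by
    rintro _ ⟨t, -, rfl⟩
    exact t.2
  have hTx : ∀ t ∈ T, t • f0 = f0 := fun t ht => (mem_F_iff t).1 (hTF t ht)
  have hTv : ∀ t ∈ T, t • (g • v) = g • v := by
    rintro _ ⟨t, ht, rfl⟩
    exact ht
  have hbv : bf (g • v) f0 = 1 := by rw [← hg', bf_smul1, bf_comm, hb]
  have hd := Cfsg.Agent.H692.TwoB.card_dvd_frame T (h2.smul1 g) hbv hTv hTx
  by_cases h23 : 23 ∣ Nat.card T
  · have : Fact (Nat.Prime 23) := ⟨by norm_num⟩
    obtain ⟨y, hy⟩ := exists_prime_orderOf_dvd_card' 23 h23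
    have hy' : orderOf (y : Co1) = 23 := by rw [Subgroup.orderOf_coe, hy]
    refine ⟨g⁻¹ * y * g, ?_, ?_, ?_⟩
    · rw [← hy']
      have : g⁻¹ * (y : Co1) * g = MulAut.conj g⁻¹ (y : Co1) := by simp
      rw [this, MulEquiv.orderOf_eq]
    · rw [mul_smul, mul_smul, hg', hTx y y.2, ← hg', inv_smul_smul]
    · rw [mul_smul, mul_smul, hTv y y.2, inv_smul_smul]
  · exfalso
    have h5 : Nat.card T ∣ 443520 := by
      have h6 : Nat.Coprime (Nat.card T) 23 := ((Nat.Prime.coprime_iff_not_dvd (by norm_num)).2 h23).symm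
      exact Nat.Coprime.dvd_of_dvd_mul_left h6 (by rw [show 23 * 443520 = 10200960 by norm_num]; exact hd)
    have h6 : Nat.card T ≤ 443520 := Nat.le_of_dvd (by norm_num) h5
    have h7 : Nat.card T = Nat.card (MulAction.stabilizer F (g • v)) :=
      Subgroup.card_map_of_injective F.subtype_injective
    have h8 := Subgroup.card_mul_index (MulAction.stabilizer F (g • v))
    rw [MulAction.index_stabilizer, ← h7, card_F] at h8
    have h9 : (MulAction.orbit F (g • v)).ncard ≤ 196560 := by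
      refine (Set.ncard_le_ncard ?_ (Set.toFinite _)).trans ncard_two
      rintro _ ⟨t, rfl⟩
      exact (h2.smul1 g).smul1 (t : Co1)
    have h10 : Nat.card T * (MulAction.orbit F (g • v)).ncard ≤ 443520 * 196560 := Nat.mul_le_mul h6 h9
    rw [h8] at h10
    norm_num at h10

end Cfsg.Agent.H658.TwoB
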